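import Mathlib

/-!
# Local fusion graphs of the symmetric groups
-/

set_option autoImplicit false

namespace CfsgLib.LFG

open Equiv Equiv.Perm

variable {Ω : Type*}

/-- permutations preserving every class of an equivalence relation -/
def pres (r : Setoid Ω) : Subgroup (Perm Ω) where
  carrier := {π | ∀ p, r (π p) p}
  one_mem' := fun p => r.refl p
  mul_mem' := fun {_ b} ha hb p => r.trans (ha (b p)) (hb p)
  inv_mem' := fun {a} ha p => r.symm (by simpa using ha (a⁻¹ p))

/-- `p` and `q` lie in one orbit of the group generated by `x` and `z` -/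
def Conn (x z : Perm Ω) (p q : Ω) : Prop := ∀ r : Setoid Ω, x ∈ pres r → z ∈ pres r → r p q

theorem odd_orderOf_of_periods [Finite Ω] {w : Perm Ω} (h : ∀ p, ∃ k : ℤ, Odd k ∧ (w ^ k) p = p) :
    Odd (orderOf w) := by
  refine Nat.not_even_iff_odd.mp fun ⟨m, hm⟩ => ?_
  have h0 := orderOf_pos w
  refine pow_ne_one_of_lt_orderOf (x := w) (n := m) (by omega) (by omega) (Equiv.ext fun p => ?_)
  obtain ⟨k, ⟨j, rfl⟩, hk⟩ := h p
  have e1 : (w ^ m) ^ (2 * j + 1) = w ^ m := by
    rw [zpow_add, zpow_mul, zpow_one, zpow_two, ← pow_add, ← hm, pow_orderOf_eq_one, one_zpow,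
      one_mul]
  rw [← e1, ← zpow_natCast, zpow_comm, zpow_natCast]
  exact pow_apply_eq_self_of_apply_eq_self hk m

section Two

variable {x z : Perm Ω} (hx : x * x = 1) (hz : z * z = 1)
include hx hz

theorem x_zpow (i : ℤ) (p : Ω) : x (((x * z) ^ i) p) = ((x * z) ^ (-i)) (x p) := by
  have e : x * (x * z) * x⁻¹ = (x * z)⁻¹ := by
    rw [← mul_assoc, hx, one_mul, mul_inv_rev, inv_eq_of_mul_eq_one_right hz]
  have : x * (x * z) ^ i * x⁻¹ = (x * z) ^ (-i) := by rw [← conj_zpow, e, inv_zpow']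
  rw [← this]; simp

omit hz in
theorem z_zpow (i : ℤ) (p : Ω) : z (((x * z) ^ i) p) = x (((x * z) ^ (1 + i)) p) := by
  rw [zpow_one_add, ← mul_apply x, ← mul_assoc, ← mul_assoc, hx, one_mul, mul_apply]

omit hx hz in
theorem Conn.mem {A : Set Ω} [Finite Ω] (h1 : ∀ p ∈ A, x p ∈ A) (h2 : ∀ p ∈ A, z p ∈ A) {p q : Ω}
    (h : Conn x z p q) : p ∈ A ↔ q ∈ A := by
  have k : ∀ y : Perm Ω, (∀ p ∈ A, y p ∈ A) → y ∈ pres (Setoid.ker (· ∈ A)) := fun y hy p =>
    propext ⟨fun e => by
      have := (Set.MapsTo.iterate hy (orderOf y - 1)) e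
      rwa [← Function.iterate_succ_apply, Nat.succ_eq_add_one, Nat.sub_add_cancel (orderOf_pos y),
        ← coe_pow, pow_orderOf_eq_one] at this, hy p⟩
  exact (h _ (k x h1) (k z h2)).to_iff

theorem period_of_path [Finite Ω] {p f g : Ω} (hf : x f = f) (hg : z g = g) (h1 : Conn x z p f)
    (h2 : Conn x z p g) : ∃ k : ℤ, Odd k ∧ ((x * z) ^ k) p = p := by
  have a1 : ∀ q ∈ {q | SameCycle (x * z) f q}, x q ∈ {q | SameCycle (x * z) f q} := by
    rintro _ ⟨i, rfl⟩
    exact ⟨-i, by rw [x_zpow hx hz, hf]⟩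
  have a2 : ∀ q ∈ {q | SameCycle (x * z) f q}, z q ∈ {q | SameCycle (x * z) f q} := by
    rintro _ ⟨i, rfl⟩
    rw [z_zpow hx]
    exact a1 _ ⟨_, rfl⟩
  have hp := (h1.mem a1 a2).mpr (SameCycle.refl _ f)
  obtain ⟨j, rfl⟩ := (h2.mem a1 a2).mp hp
  obtain ⟨i, rfl⟩ := hp
  rw [z_zpow hx, x_zpow hx hz, hf] at hg
  refine ⟨2 * j + 1, odd_two_mul_add_one j, ?_⟩
  rw [← mul_apply, zpow_mul_comm, mul_apply, show 2 * j + 1 = (1 + j) + j by ring, zpow_add,
    mul_apply, ← hg, ← mul_apply (_ ^ (1 + j)), ← zpow_add, add_neg_cancel]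
  rfl

theorem period_of_cycle [Fintype Ω] [DecidableEq Ω] (hs : z.support = x.support) {m : ℕ}
    (hm : x.support.card = 2 * m) {p : Ω} (hp : p ∈ x.support)
    (h : ∀ q ∈ x.support, Conn x z p q) : ((x * z) ^ m) p = p := by
  classical
  set O := Finset.univ.filter (SameCycle (x * z) p) with hO
  have hw : (x * z).support ⊆ x.support := (support_mul_le x z).trans (by simp [hs])
  have hOS : O ⊆ x.support := fun q hq => by
    obtain ⟨i, rfl⟩ := (Finset.mem_filter.mp hq).2
    by_cases e : (x * z) p = p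
    · rwa [zpow_apply_eq_self_of_apply_eq_self e]
    · exact hw (zpow_apply_mem_support.mpr (mem_support.mpr e))
  have hd : Disjoint O (O.image x) := Finset.disjoint_left.mpr fun q hq hq' => by
    obtain ⟨q, hq'', rfl⟩ := Finset.mem_image.mp hq'
    obtain ⟨i, rfl⟩ := (Finset.mem_filter.mp hq'').2
    obtain ⟨j, e⟩ := (Finset.mem_filter.mp hq).2
    have e1 : x p = ((x * z) ^ (i + j)) p := by
      rw [zpow_add, mul_apply, e, x_zpow hx hz, ← mul_apply, ← zpow_add, add_neg_cancel]; rfl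
    have hm : ∀ l : ℤ, ((x * z) ^ l) p ∈ x.support := fun l =>
      hOS (Finset.mem_filter.mpr ⟨Finset.mem_univ _, l, rfl⟩)
    rcases Int.even_or_odd' (i + j) with ⟨l, e2 | e2⟩
    · refine mem_support.mp (hm l) ?_
      rw [x_zpow hx hz, e1, e2, ← mul_apply, ← zpow_add]
      congr 2; ring
    · refine mem_support.mp (hs ▸ hm l) ?_
      rw [z_zpow hx, x_zpow hx hz, e1, e2, ← mul_apply, ← zpow_add]
      congr 2; ring
  have hxx : ∀ q, x (x q) = q := fun q => by rw [← mul_apply, hx, one_apply]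
  have a1 : ∀ q ∈ ((O ∪ O.image x : Finset Ω) : Set Ω), x q ∈ ((O ∪ O.image x : Finset Ω) : Set Ω) :=
    fun q hq => by
      rcases Finset.mem_union.mp hq with e | e
      · exact Finset.mem_union_right _ (Finset.mem_image_of_mem _ e)
      · obtain ⟨q, e', rfl⟩ := Finset.mem_image.mp e
        exact Finset.mem_union_left _ ((hxx q).symm ▸ e')
  have a2 : ∀ q ∈ ((O ∪ O.image x : Finset Ω) : Set Ω), z q ∈ ((O ∪ O.image x : Finset Ω) : Set Ω) :=
    fun q hq => by
      rcases Finset.mem_union.mp hq with e | e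
      · obtain ⟨i, rfl⟩ := (Finset.mem_filter.mp e).2
        rw [z_zpow hx]
        exact a1 _ (Finset.mem_union_left _ (Finset.mem_filter.mpr ⟨Finset.mem_univ _, _, rfl⟩))
      · obtain ⟨q, e', rfl⟩ := Finset.mem_image.mp e
        obtain ⟨i, rfl⟩ := (Finset.mem_filter.mp e').2
        refine Finset.mem_union_left _ (Finset.mem_filter.mpr ⟨Finset.mem_univ _, -1 + i, ?_⟩)
        rw [zpow_add, zpow_neg_one, mul_inv_rev, inv_eq_of_mul_eq_one_right hz,
          inv_eq_of_mul_eq_one_right hx]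
        rfl
  have hU : O ∪ O.image x = x.support := Finset.Subset.antisymm
    (Finset.union_subset hOS fun q hq => by
      obtain ⟨q, e, rfl⟩ := Finset.mem_image.mp hq
      exact apply_mem_support.mpr (hOS e))
    fun q hq => ((h q hq).mem a1 a2).mp
      (Finset.mem_union_left _ (Finset.mem_filter.mpr ⟨Finset.mem_univ _, SameCycle.refl _ _⟩))
  have hc : O.card = m := by
    have := Finset.card_union_of_disjoint hd
    rw [hU, Finset.card_image_of_injective _ x.injective] at this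
    omega
  by_cases e : (x * z) p = p
  · exact pow_apply_eq_self_of_apply_eq_self e m
  · have : ((x * z).cycleOf p).support = O := by
      ext q; rw [mem_support_cycleOf_iff, hO, Finset.mem_filter, mem_support]
      exact ⟨fun h => ⟨Finset.mem_univ _, h.1⟩, fun h => ⟨h.2, e⟩⟩
    rw [← cycleOf_pow_apply_self, ← hc, ← this, ← (isCycle_cycleOf _ e).orderOf, pow_orderOf_eq_one]
    rfl

end Two

section Step

variable [Fintype Ω] [DecidableEq Ω]

/-- the invariant of the induction -/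
def Good (S : Finset Ω) (x z : Perm Ω) : Prop :=
  ∀ p ∈ S, (∀ q ∈ S, Conn x z p q) ∨
    ((∃ f ∈ S, x f = f ∧ Conn x z p f) ∧ ∃ g ∈ S, z g = g ∧ Conn x z p g)

theorem drop {x : Perm Ω} {a b : Ω} (hx : x * x = 1) (hab : a ≠ b) (h : x a = b) :
    x * swap a b * (x * swap a b) = 1 ∧ (x * swap a b).support = (x.support.erase a).erase b ∧
      (x * swap a b).support.card + 2 = x.support.card := by
  have hb : x b = a := by rw [← h, ← mul_apply, hx, one_apply]
  have e : (x * swap a b).support = (x.support.erase a).erase b := by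
    ext q
    simp only [mem_support, Finset.mem_erase, mul_apply]
    by_cases h1 : q = a
    · simp [h1, hb]
    by_cases h2 : q = b
    · simp [h2, h]
    simp [swap_apply_of_ne_of_ne h1 h2, h1, h2]
  refine ⟨?_, e, ?_⟩
  · rw [mul_swap_eq_swap_mul, h, hb, mul_assoc, ← mul_assoc x, mul_swap_eq_swap_mul, h, hb,
      mul_assoc, hx, mul_one, swap_comm, swap_mul_self]
  · have ha : a ∈ x.support := mem_support.mpr (h ▸ hab.symm)
    have hb' : b ∈ x.support.erase a := Finset.mem_erase.mpr ⟨hab.symm, mem_support.mpr (hb ▸ hab)⟩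
    rw [e, ← Finset.card_erase_add_one ha, ← Finset.card_erase_add_one hb']

theorem grow {z : Perm Ω} {a b : Ω} {S : Finset Ω} (hz : z * z = 1) (hab : a ≠ b) (ha : a ∈ S)
    (hb : b ∈ S) (hS : z.support ⊆ (S.erase a).erase b) :
    z * swap a b * (z * swap a b) = 1 ∧ (z * swap a b).support ⊆ S ∧ (z * swap a b) a = b ∧
      (z * swap a b).support.card = z.support.card + 2 ∧ Commute z (swap a b) := by
  have h1 : z a = a := notMem_support.mp fun e => by simpa using hS e
  have h2 : z b = b := notMem_support.mp fun e => by simpa using hS e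
  have hc : Commute z (swap a b) := by rw [Commute, SemiconjBy, mul_swap_eq_swap_mul, h1, h2]
  have e1 : z * swap a b * (z * swap a b) = 1 := by
    rw [← sq, hc.mul_pow, sq, sq, hz, swap_mul_self, one_mul]
  have e2 : (z * swap a b) a = b := by simp [h2]
  refine ⟨e1, (support_mul_le _ _).trans (sup_le (hS.trans ((Finset.erase_subset _ _).trans
    (Finset.erase_subset _ _))) ?_), e2, ?_, hc⟩
  · rw [support_swap hab]
    exact Finset.insert_subset ha (Finset.singleton_subset_iff.mpr hb)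
  · rw [← (drop e1 hab e2).2.2, mul_assoc, swap_mul_self, mul_one]

theorem contract {x : Perm Ω} {a b : Ω} {S : Finset Ω} (hx : x * x = 1) (hab : a ≠ b) (ha : a ∈ S)
    (hS : x.support ⊆ S) (h1 : x b ≠ a) (h2 : x b ≠ b) :
    ∃ x' : Perm Ω, x' * x' = 1 ∧ x'.support ⊆ (S.erase a).erase b ∧
      x'.support.card + 2 = x.support.card ∧ ∀ z : Perm Ω, z.support ⊆ (S.erase a).erase b →
        Good ((S.erase a).erase b) x' z → Good S x (z * swap a b) := by
  set τ := swap a (x b) with hτ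
  have hd : x b ∈ S := hS (apply_mem_support.mpr (mem_support.mpr h2))
  have hτS : ∀ q ∈ S, τ q ∈ S := fun q hq => by
    rw [hτ, swap_apply_def]; split_ifs <;> assumption
  have e1 : τ * x * τ⁻¹ * (τ * x * τ⁻¹) = 1 := by rw [conj_mul, hx]; simp
  have e2 : (τ * x * τ⁻¹) a = b := by
    have : x (x b) = b := by rw [← mul_apply, hx, one_apply]
    simp [hτ, this, swap_apply_of_ne_of_ne hab.symm h2.symm]
  obtain ⟨d1, d2, d3⟩ := drop e1 hab e2
  refine ⟨_, d1, ?_, by rw [d3, card_support_conj], fun z hz hG p hp => ?_⟩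
  · rw [d2, support_conj]
    refine Finset.erase_subset_erase _ (Finset.erase_subset_erase _ fun q hq => ?_)
    obtain ⟨q, hq', rfl⟩ := Finset.mem_map.mp hq
    exact hτS q (hS hq')
  have hb : z b = b := notMem_support.mp fun e => by simpa using hz e
  have hab' : Conn x (z * swap a b) a b := fun r _ h => r.symm (by simpa [hb] using h a)
  have had : Conn x (z * swap a b) a (x b) := fun r h h' => r.trans (hab' r h h') (r.symm (h b))
  have hsw : ∀ (r : Setoid Ω) (u v : Ω), r u v → swap u v ∈ pres r := fun r u v h q => by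
    rw [swap_apply_def]
    split_ifs with c1 c2
    · exact c1 ▸ r.symm h
    · exact c2 ▸ h
    · exact r.refl q
  have hmono : ∀ u v, Conn (τ * x * τ⁻¹ * swap a b) z u v → Conn x (z * swap a b) u v :=
    fun u v h r c1 c2 => h r
      (mul_mem (mul_mem (mul_mem (hsw r _ _ (had r c1 c2)) c1) (inv_mem (hsw r _ _ (had r c1 c2))))
        (hsw r _ _ (hab' r c1 c2))) ((mul_mem_cancel_right (hsw r _ _ (hab' r c1 c2))).mp c2)
  have hnear : ∀ q ∈ S, ∃ q' ∈ (S.erase a).erase b, Conn x (z * swap a b) q q' := fun q hq => by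
    by_cases c1 : q = a
    · exact ⟨x b, by simp [h1, h2, hd], c1 ▸ had⟩
    by_cases c2 : q = b
    · exact ⟨x b, by simp [h1, h2, hd], fun r h _ => by rw [c2]; exact r.symm (h b)⟩
    exact ⟨q, by simp [c1, c2, hq], fun r _ _ => r.refl q⟩
  obtain ⟨p', hp', c⟩ := hnear p hp
  rcases hG p' hp' with h | ⟨⟨f, hf, f1, f2⟩, g, hg, g1, g2⟩
  · refine Or.inl fun q hq r c1 c2 => ?_
    obtain ⟨q', hq', c'⟩ := hnear q hq
    exact r.trans (c r c1 c2) (r.trans (hmono _ _ (h q' hq') r c1 c2) (r.symm (c' r c1 c2)))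
  · simp only [Finset.mem_erase] at hf hg
    refine Or.inr ⟨⟨τ⁻¹ f, by simpa [hτ] using hτS f hf.2.2, ?_, fun r c1 c2 => ?_⟩, g, hg.2.2,
      by rw [mul_apply, swap_apply_of_ne_of_ne hg.2.1 hg.1, g1],
      fun r c1 c2 => r.trans (c r c1 c2) (hmono _ _ g2 r c1 c2)⟩
    · rw [mul_apply, swap_apply_of_ne_of_ne hf.2.1 hf.1, mul_apply, mul_apply] at f1
      exact τ.injective (by rw [f1]; simp)
    · exact r.trans (c r c1 c2) (r.trans (hmono _ _ f2 r c1 c2)
        (r.symm (inv_mem (hsw r _ _ (had r c1 c2)) f)))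

theorem contract' {x : Perm Ω} {a b : Ω} {S : Finset Ω} (hx : x * x = 1) (hab : a ≠ b) (ha : a ∈ S)
    (hb : b ∈ S) (hS : x.support ⊆ S) (h1 : x a ≠ b) (h2 : x a ≠ a ∨ x b ≠ b) :
    ∃ x' : Perm Ω, x' * x' = 1 ∧ x'.support ⊆ (S.erase a).erase b ∧
      x'.support.card + 2 = x.support.card ∧ ∀ z : Perm Ω, z.support ⊆ (S.erase a).erase b →
        Good ((S.erase a).erase b) x' z → Good S x (z * swap a b) := by
  rcases h2 with h2 | h2
  · rw [Finset.erase_right_comm, swap_comm]
    exact contract hx hab.symm hb hS h1 h2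
  · exact contract hx hab ha hS (fun e => h1 (by rw [← e, ← mul_apply, hx, one_apply])) h2

/-- conclusion of the induction -/
def Sol (S : Finset Ω) (x y z : Perm Ω) : Prop :=
  z * z = 1 ∧ z.support ⊆ S ∧ z.support.card = x.support.card ∧ Good S x z ∧ Good S y z

theorem step {x y : Perm Ω} {a b : Ω} {S : Finset Ω} (hx : x * x = 1) (hy : y * y = 1)
    (hxS : x.support ⊆ S) (hyS : y.support ⊆ S) (hc : x.support.card = y.support.card)
    (hab : a ≠ b) (ha : a ∈ S) (hb : b ∈ S) (h1 : x a ≠ b) (h2 : x a ≠ a ∨ x b ≠ b)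
    (h3 : y a ≠ b) (h4 : y a ≠ a ∨ y b ≠ b)
    (ih : ∀ x y : Perm Ω, x * x = 1 → y * y = 1 → x.support ⊆ (S.erase a).erase b →
      y.support ⊆ (S.erase a).erase b → x.support.card = y.support.card →
      ∃ z, Sol ((S.erase a).erase b) x y z) : ∃ z, z a = b ∧ Sol S x y z := by
  obtain ⟨x', a1, a2, a3, a4⟩ := contract' hx hab ha hb hxS h1 h2
  obtain ⟨y', b1, b2, b3, b4⟩ := contract' hy hab ha hb hyS h3 h4
  obtain ⟨z, c1, c2, c3, c4, c5⟩ := ih x' y' a1 b1 a2 b2 (by omega)
  obtain ⟨d1, d2, d3, d4, -⟩ := grow c1 hab ha hb c2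
  exact ⟨_, d3, d1, d2, by omega, a4 z c2 c4, b4 z c2 c5⟩

theorem exists_sol (S : Finset Ω) : ∀ x y : Perm Ω, x * x = 1 → y * y = 1 → x.support ⊆ S →
    y.support ⊆ S → x.support.card = y.support.card → ∃ z, Sol S x y z := by
  induction S using Finset.strongInduction with
  | H S ih =>
  intro x y hx hy hxS hyS hc
  have hxx : ∀ q, x (x q) = q := fun q => by rw [← mul_apply, hx, one_apply]
  have hyy : ∀ q, y (y q) = q := fun q => by rw [← mul_apply, hy, one_apply]
  have st : ∀ a b, a ≠ b → a ∈ S → b ∈ S → x a ≠ b → (x a ≠ a ∨ x b ≠ b) → y a ≠ b →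
      (y a ≠ a ∨ y b ≠ b) → ∃ z, Sol S x y z := fun a b hab ha hb h1 h2 h3 h4 =>
    (step hx hy hxS hyS hc hab ha hb h1 h2 h3 h4 (ih _ ((Finset.erase_subset _ _).trans_ssubset
      (Finset.erase_ssubset ha)))).imp fun _ h => h.2
  by_cases h0 : x = 1
  · have : y = 1 := by rw [← support_eq_empty_iff, ← Finset.card_eq_zero, ← hc, h0]; simp
    rw [h0, this]
    have : Good S (1 : Perm Ω) 1 := fun p hp =>
      Or.inr ⟨⟨p, hp, rfl, fun r _ _ => r.refl p⟩, p, hp, rfl, fun r _ _ => r.refl p⟩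
    exact ⟨1, one_mul _, by simp, rfl, this, this⟩
  by_cases hb : ∃ a, x a ≠ a ∧ y a ≠ a
  · obtain ⟨a, h1, h2⟩ := hb
    have ha := hxS (mem_support.mpr h1)
    have hxa := hxS (apply_mem_support.mpr (mem_support.mpr h1))
    by_cases e : x a = y a
    · by_cases h3 : ∃ b ∈ S, b ≠ a ∧ b ≠ x a
      · obtain ⟨b, hb, h4, h5⟩ := h3
        exact st a b h4.symm ha hb h5.symm (Or.inl h1) (e ▸ h5.symm) (Or.inl h2)
      push Not at h3
      have : ∀ p ∈ S, ∀ r : Setoid Ω, x ∈ pres r → r p a := fun p hp r h => by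
        by_cases c : p = a
        · exact c ▸ r.refl p
        · exact h3 p hp c ▸ h a
      exact ⟨x, hx, hxS, rfl, fun p hp => Or.inl fun q hq r h _ =>
        r.trans (this p hp r h) (r.symm (this q hq r h)), fun p hp => Or.inl fun q hq r _ h =>
        r.trans (this p hp r h) (r.symm (this q hq r h))⟩
    · exact st _ _ e hxa (hyS (apply_mem_support.mpr (mem_support.mpr h2)))
        (by rw [hxx]; exact h2.symm) (Or.inl (by rw [hxx]; exact h1.symm))
        (fun c => h1 (y.injective c)) (Or.inr (by rw [hyy]; exact h2.symm))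
  · push Not at hb
    obtain ⟨a, ha⟩ : ∃ a, x a ≠ a := not_forall.mp fun h => h0 (Equiv.ext h)
    obtain ⟨b, hb'⟩ : y.support.Nonempty := by
      rw [← Finset.card_pos, ← hc, Finset.card_pos]; exact ⟨a, mem_support.mpr ha⟩
    have h1 : a ≠ b := fun e => mem_support.mp hb' (e ▸ hb a ha)
    exact st a b h1 (hxS (mem_support.mpr ha)) (hyS hb')
      (fun e => mem_support.mp hb' (e ▸ hb _ (by rw [hxx]; exact ha.symm))) (Or.inl ha)
      (by rw [hb a ha]; exact h1) (Or.inr (mem_support.mp hb'))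

theorem odd_of_fixed {x z : Perm Ω} (hx : x * x = 1) (hz : z * z = 1) (h : Good Finset.univ x z)
    (h1 : x.support ≠ Finset.univ) (h2 : z.support ≠ Finset.univ) : Odd (orderOf (x * z)) := by
  refine odd_orderOf_of_periods fun p => ?_
  rcases h p (Finset.mem_univ p) with h | ⟨⟨f, -, f1, f2⟩, g, -, g1, g2⟩
  · obtain ⟨f, hf⟩ := not_forall.mp (mt Finset.eq_univ_iff_forall.mpr h1)
    obtain ⟨g, hg⟩ := not_forall.mp (mt Finset.eq_univ_iff_forall.mpr h2)
    exact period_of_path hx hz (notMem_support.mp hf) (notMem_support.mp hg)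
      (h f (Finset.mem_univ _)) (h g (Finset.mem_univ _))
  · exact period_of_path hx hz f1 g1 f2 g2

theorem odd_of_free {x z : Perm Ω} (hx : x * x = 1) (hz : z * z = 1) (h : Good x.support x z)
    (hs : z.support = x.support) {m : ℕ} (hm : x.support.card = 2 * m) (ho : Odd m) :
    Odd (orderOf (x * z)) := by
  refine odd_orderOf_of_periods fun p => ?_
  by_cases hp : p ∈ x.support
  · rcases h p hp with h | ⟨⟨f, hf, f1, -⟩, -⟩
    · exact ⟨m, by exact_mod_cast ho, by rw [zpow_natCast]; exact period_of_cycle hx hz hs hm hp h⟩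
    · exact absurd f1 (mem_support.mp hf)
  · exact ⟨1, odd_one, by
      rw [zpow_one, mul_apply, notMem_support.mp (show p ∉ z.support from hs ▸ hp),
        notMem_support.mp hp]⟩

theorem common_edge {x y z : Perm Ω} {a b : Ω} (hx : x * x = 1) (hy : y * y = 1) (hab : a ≠ b)
    (hxa : x a = b) (hya : y a = b) (hxs : x.support = Finset.univ) (hys : y.support = Finset.univ)
    {m : ℕ} (hm : Fintype.card Ω = 2 * m) (he : Even m)
    (h : Sol ((Finset.univ.erase a).erase b) (x * swap a b) (y * swap a b) z) :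
    z * swap a b * (z * swap a b) = 1 ∧ (z * swap a b).support.card = x.support.card ∧
      Odd (orderOf (x * (z * swap a b))) ∧ Odd (orderOf (y * (z * swap a b))) := by
  obtain ⟨h1, h2, h3, h4, h5⟩ := h
  obtain ⟨a1, a2, a3⟩ := drop hx hab hxa
  obtain ⟨b1, b2, b3⟩ := drop hy hab hya
  obtain ⟨d1, -, -, d4, d5⟩ := grow h1 hab (Finset.mem_univ a) (Finset.mem_univ b) h2
  rw [hxs] at a2
  rw [hys] at b2
  have hz : z.support = (x * swap a b).support :=
    Finset.eq_of_subset_of_card_le (a2 ▸ h2) h3.ge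
  have hc : (x * swap a b).support.card = 2 * (m - 1) := by
    rw [hxs, Finset.card_univ] at a3; omega
  have ho : Odd (m - 1) := by
    rw [hxs, Finset.card_univ] at a3
    exact Nat.Even.sub_odd (by omega) he odd_one
  refine ⟨d1, by omega, ?_, ?_⟩
  · rw [d5.eq, ← mul_assoc]
    exact odd_of_free a1 h1 (a2 ▸ h4) hz hc ho
  · rw [d5.eq, ← mul_assoc]
    exact odd_of_free b1 h1 (b2 ▸ h5) (by rw [hz, a2, b2]) (by rw [b2, ← a2, hc]) ho

theorem exists_mid (hn : 5 ≤ Fintype.card Ω) {x y : Perm Ω} (hx : x * x = 1) (hy : y * y = 1)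
    (hc : x.support.card = y.support.card) : ∃ z : Perm Ω, z * z = 1 ∧
      z.support.card = x.support.card ∧ Odd (orderOf (x * z)) ∧ Odd (orderOf (y * z)) := by
  have hu : ∀ u : Perm Ω, u.support = Finset.univ ↔ u.support.card = Fintype.card Ω := fun u =>
    (Finset.card_eq_iff_eq_univ _).symm
  obtain ⟨z, h1, -, h3, h4, h5⟩ := exists_sol Finset.univ x y hx hy (by simp) (by simp) hc
  by_cases hxs : x.support = Finset.univ
  swap
  · have hz : z.support ≠ Finset.univ := by rwa [Ne, hu, h3, ← hu]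
    exact ⟨z, h1, h3, odd_of_fixed hx h1 h4 hxs hz,
      odd_of_fixed hy h1 h5 (by rwa [Ne, hu, ← hc, ← hu]) hz⟩
  have hys : y.support = Finset.univ := by rwa [hu, ← hc, ← hu]
  obtain ⟨m, hm⟩ := two_dvd_card_support (sq x ▸ hx)
  rcases Nat.even_or_odd m with he | ho
  swap
  · have hz : z.support = Finset.univ := by rwa [hu, h3, ← hu]
    exact ⟨z, h1, h3, odd_of_free hx h1 (hxs ▸ h4) (hz.trans hxs.symm) hm ho,
      odd_of_free hy h1 (hys ▸ h5) (hz.trans hys.symm) (hc ▸ hm) ho⟩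
  clear h1 h3 h4 h5 z
  rw [(hu x).mp hxs] at hm
  have hxa : ∀ a, a ≠ x a := fun a => (mem_support.mp (hxs ▸ Finset.mem_univ a)).symm
  have hya : ∀ a, a ≠ y a := fun a => (mem_support.mp (hys ▸ Finset.mem_univ a)).symm
  have hyy : ∀ q, y (y q) = q := fun q => by rw [← mul_apply, hy, one_apply]
  by_cases hb : ∃ a, x a = y a
  · obtain ⟨a, e⟩ := hb
    obtain ⟨a1, a2, a3⟩ := drop hx (hxa a) rfl
    obtain ⟨b1, b2, b3⟩ := drop hy (hxa a) e.symm
    obtain ⟨z, hz⟩ := exists_sol ((Finset.univ.erase a).erase (x a)) _ _ a1 b1 (by rw [a2, hxs])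
      (by rw [b2, hys]) (by omega)
    exact ⟨_, common_edge hx hy (hxa a) rfl e.symm hxs hys hm he hz⟩
  push Not at hb
  obtain ⟨a⟩ : Nonempty Ω := Fintype.card_pos_iff.mp (by omega)
  obtain ⟨c, hc'⟩ : ∃ c, c ∉ ({a, x a, y a, y (x a)} : Finset Ω) := by
    by_contra! h
    have := Finset.card_le_card (fun q _ => h q : Finset.univ ⊆ _)
    have h4 : ({a, x a, y a, y (x a)} : Finset Ω).card ≤ 4 := Finset.card_le_four
    rw [Finset.card_univ] at this
    omega
  simp only [Finset.mem_insert, Finset.mem_singleton, not_or] at hc'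
  obtain ⟨c1, c2, c3, c4⟩ := hc'
  have d1 : y c ≠ a := fun e => c3 (by rw [← e, hyy])
  have d2 : y c ≠ x a := fun e => c4 (by rw [← e, hyy])
  have hab := hxa a
  have hcd := hya c
  set b := x a with hbdef
  set d := y c with hddef
  set τ := swap a c * swap b d with hτ
  have t1 : τ a = c := by simp [hτ, swap_apply_of_ne_of_ne hab d1.symm]
  have t2 : τ b = d := by simp [hτ, swap_apply_of_ne_of_ne d1 hcd.symm]
  have t3 : τ c = a := by simp [hτ, swap_apply_of_ne_of_ne c2 hcd]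
  have t4 : τ d = b := by simp [hτ, swap_apply_of_ne_of_ne hab.symm (Ne.symm c2)]
  have e1 : τ⁻¹ * y * τ * (τ⁻¹ * y * τ) = 1 := by
    rw [mul_assoc, mul_assoc, ← mul_assoc τ, ← mul_assoc τ, mul_inv_cancel, one_mul, ← mul_assoc y,
      hy, one_mul, inv_mul_cancel]
  have e2 : (τ⁻¹ * y * τ) a = b := by rw [mul_apply, mul_apply, t1, ← hddef, ← t2]; simp
  have e3 : (τ⁻¹ * y * τ).support = Finset.univ := Finset.eq_univ_iff_forall.mpr fun q =>
    mem_support.mpr fun e => hya (τ q) (by simpa using (congrArg τ e).symm)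
  obtain ⟨a1, a2, a3⟩ := drop hx hab rfl
  obtain ⟨b1, b2, b3⟩ := drop e1 hab e2
  have s1 := swap_apply_of_ne_of_ne c1 c2
  obtain ⟨z, hz1, hz⟩ := step (S := (Finset.univ.erase a).erase b) a1 b1 (by rw [a2, hxs])
    (by rw [b2, e3]) (by rw [a2, b2, hxs, e3]) hcd (by simp [c1, c2]) (by simp [d1, d2])
    (by rw [mul_apply, s1]; exact hb c) (Or.inl (by rw [mul_apply, s1]; exact (hxa c).symm))
    (by
      rw [mul_apply, s1, mul_apply, mul_apply, t3]
      exact fun e => hb a (by rw [← hbdef, ← t4, ← e]; simp))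
    (Or.inl (by rw [mul_apply, s1]; exact mem_support.mp (e3 ▸ Finset.mem_univ c)))
    (exists_sol _)
  obtain ⟨f1, f2, f3, f4⟩ := common_edge hx e1 hab rfl e2 hxs e3 hm he hz
  have g1 := (grow hz.1 hab (Finset.mem_univ a) (Finset.mem_univ b) hz.2.1).2.2.1
  have g2 : (z * swap a b) c = d := by rw [mul_apply, s1, hz1]
  generalize z * swap a b = u at f1 f2 f3 f4 g1 g2
  have g3 : u b = a := by rw [← g1, ← mul_apply, f1, one_apply]
  have g4 : u d = c := by rw [← g2, ← mul_apply, f1, one_apply]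
  have g5 : u * τ = τ * u := by
    rw [hτ, ← mul_assoc, mul_swap_eq_swap_mul u, mul_assoc, mul_swap_eq_swap_mul u, g1, g2, g3, g4,
      ← mul_assoc]
    congr 1
    rw [mul_swap_eq_swap_mul, swap_apply_of_ne_of_ne hab d1.symm, swap_apply_of_ne_of_ne c2 hcd]
  refine ⟨u, f1, f2, f3, ?_⟩
  rwa [mul_assoc, ← g5, mul_assoc, ← mul_assoc y, ← mul_assoc,
    show τ⁻¹ * (y * u) * τ = MulAut.conj τ⁻¹ (y * u) by simp, MulEquiv.orderOf_eq] at f4

theorem isConj_of_card {x y : Perm Ω} (hx : x * x = 1) (hy : y * y = 1)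
    (hc : x.support.card = y.support.card) : IsConj x y := by
  haveI : Fact (Nat.Prime 2) := ⟨Nat.prime_two⟩
  have h1 := cycleType_of_pow_prime_eq_one (p := 2) (sq x ▸ hx)
  have h2 := cycleType_of_pow_prime_eq_one (p := 2) (sq y ▸ hy)
  rw [← sum_cycleType, ← sum_cycleType, h1, h2, Multiset.sum_replicate, Multiset.sum_replicate,
    smul_eq_mul, smul_eq_mul] at hc
  rw [isConj_iff_cycleType_eq, h1, h2, Nat.eq_of_mul_eq_mul_right two_pos hc]

theorem exists_commuting (hn : 4 ≤ Fintype.card Ω) {t : Perm Ω} (ht : t * t = 1) (h1 : t ≠ 1) :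
    ∃ y, IsConj t y ∧ t ≠ y ∧ t * y = y * t := by
  obtain ⟨a, ha⟩ : ∃ a, t a ≠ a := not_forall.mp fun h => h1 (Equiv.ext h)
  have htt : ∀ q, t (t q) = q := fun q => by rw [← mul_apply, ht, one_apply]
  by_cases h : ∃ c, c ≠ a ∧ c ≠ t a ∧ t c ≠ c
  · obtain ⟨c, c1, c2, c3⟩ := h
    have c4 : t c ≠ a := fun e => c2 (by rw [← e, htt])
    have c5 : t c ≠ t a := fun e => c1 (t.injective e)
    have e : swap (t a) c * t * (swap (t a) c)⁻¹ = t * (swap a (t c) * swap (t a) c) := by
      rw [swap_inv, ← mul_assoc t, mul_swap_eq_swap_mul t a, htt]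
    refine ⟨_, isConj_iff.mpr ⟨swap (t a) c, rfl⟩, fun e' => c2 ?_, ?_⟩
    · have := congrArg (fun π : Perm Ω => π a) e'
      simpa [swap_apply_of_ne_of_ne ha.symm c1.symm, eq_comm] using this
    · rw [e, mul_assoc t, mul_right_inj, ← mul_assoc, mul_swap_eq_swap_mul t, mul_assoc,
        mul_swap_eq_swap_mul t, htt, htt, ← mul_assoc]
      congr 1
      rw [mul_swap_eq_swap_mul, swap_apply_of_ne_of_ne ha.symm c1.symm,
        swap_apply_of_ne_of_ne c5 c3]
  · push Not at h
    have e : t = swap a (t a) := Equiv.ext fun q => by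
      rw [swap_apply_def]
      split_ifs with c1 c2
      · rw [c1]
      · rw [c2, htt]
      · exact h q c1 c2
    obtain ⟨c, hc, d, hd, hcd⟩ : ∃ c ∈ (Finset.univ.erase a).erase (t a),
        ∃ d ∈ (Finset.univ.erase a).erase (t a), c ≠ d := Finset.one_lt_card.mp (by
      rw [Finset.card_erase_of_mem (by simpa using ha), Finset.card_erase_of_mem (by simp),
        Finset.card_univ]
      omega)
    simp only [Finset.mem_erase] at hc hd
    refine ⟨swap c d, e ▸ isConj_swap ha.symm hcd, fun e' => hcd ?_, ?_⟩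
    · have := congrArg (fun π : Perm Ω => π c) e'
      simpa [h c hc.2.1 hc.1] using this
    · rw [mul_swap_eq_swap_mul, h c hc.2.1 hc.1, h d hd.2.1 hd.1]

end Step

theorem s3265 (n : ℕ) (hn : 5 ≤ n) (t : Perm (Fin n)) (ht : orderOf t = 2) :
    (SimpleGraph.fromRel fun x y : {x : Perm (Fin n) // IsConj t x} =>
        Odd (orderOf (x.1 * y.1))).Connected ∧
      (SimpleGraph.fromRel fun x y : {x : Perm (Fin n) // IsConj t x} =>
        Odd (orderOf (x.1 * y.1))).diam = 2 := by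
  set Γ := SimpleGraph.fromRel fun x y : {x : Perm (Fin n) // IsConj t x} =>
    Odd (orderOf (x.1 * y.1)) with hΓ
  have ht2 : t * t = 1 := by rw [← sq, ← ht, pow_orderOf_eq_one]
  have h2 : ∀ x : {x : Perm (Fin n) // IsConj t x}, x.1 * x.1 = 1 ∧
      x.1.support.card = t.support.card := fun ⟨x, hx⟩ => by
    obtain ⟨g, rfl⟩ := isConj_iff.mp hx
    exact ⟨by rw [conj_mul, ht2]; simp, card_support_conj⟩
  have h1 : ∀ x y : {x : Perm (Fin n) // IsConj t x}, Odd (orderOf (x.1 * y.1)) →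
      Γ.edist x y ≤ 1 := fun x y h => SimpleGraph.edist_le_one_iff_adj_or_eq.mpr
    ((em (x = y)).symm.imp_left fun e => by rw [hΓ, SimpleGraph.fromRel_adj]; exact ⟨e, Or.inl h⟩)
  have h3 : Γ.ediam ≤ 2 := SimpleGraph.ediam_le_of_edist_le fun x y => by
    obtain ⟨z, a1, a2, a3, a4⟩ := exists_mid (by simpa using hn) (h2 x).1 (h2 y).1
      ((h2 x).2.trans (h2 y).2.symm)
    have hz : IsConj t z := isConj_of_card ht2 a1 (a2.trans (h2 x).2).symm
    refine (SimpleGraph.edist_triangle (v := ⟨z, hz⟩)).trans ?_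
    rw [Γ.edist_comm (u := ⟨z, hz⟩) (v := y)]
    exact add_le_add (h1 x ⟨z, hz⟩ a3) (h1 y ⟨z, hz⟩ a4)
  obtain ⟨y, b1, b2, b3⟩ := exists_commuting (by simpa using le_of_lt hn) ht2
    fun e => by simp [e] at ht
  have h4 : ¬ Γ.ediam ≤ 1 := fun e => by
    have hy := (h2 ⟨y, b1⟩).1
    have ho : orderOf (t * y) = 2 := orderOf_eq_prime (by
      rw [Commute.mul_pow b3, sq, sq, ht2, hy, one_mul]) fun e =>
        b2 ((eq_inv_of_mul_eq_one_left e).trans (inv_eq_of_mul_eq_one_right hy))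
    rcases SimpleGraph.edist_le_one_iff_adj_or_eq.mp ((SimpleGraph.edist_le_ediam
      (u := ⟨t, IsConj.refl t⟩) (v := ⟨y, b1⟩)).trans e) with h | h
    · rw [hΓ, SimpleGraph.fromRel_adj] at h
      have : Odd (orderOf (t * y)) := h.2.elim id fun h => b3 ▸ h
      rw [ho] at this
      exact absurd this (by decide)
    · exact b2 (congrArg Subtype.val h)
  haveI : Nonempty {x : Perm (Fin n) // IsConj t x} := ⟨⟨t, IsConj.refl t⟩⟩
  have h5 : Γ.ediam = 2 := le_antisymm h3 (Order.add_one_le_of_lt (not_le.mp h4))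
  exact ⟨SimpleGraph.connected_of_ediam_ne_top (by rw [h5]; decide), by
    rw [SimpleGraph.diam, h5]; rfl⟩

end CfsgLib.LFG
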